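import Cfsg.Agent.H190.IF.Core
import Cfsg.Agent.H557.LrE7

/-!
# S5719, `E₇(q)`, `q` odd: tables for the non-toral involutions (helper496)

`w` with `rep w v = th7 v`; the frame `bb 0, .., bb 3` (`H557.LrE7.bb`), fixed by `w`.

* `root`, `fix`, `fixn`, `orth`, `ec0`, .., `ec3` : the frame;
* `Lvl cs w C α S` : representatives `S` of the two-cycles of `w` on the roots `β ⟂ C` with `⟨β, α^∨⟩ = 1`;
* `lvl0`, `lvl0n`, .., `lvl3n` : the eight levels, `12, 12, 8, 8, 4, 4, 0, 0` representatives.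
-/

set_option autoImplicit false
set_option linter.unusedSectionVars false

namespace Cfsg.Agent.H496.NTab

open CoxeterSystem Cfsg.Agent.ChevalleyStructure.CoxeterGeom Cfsg.Agent.Tits.Roots Cfsg.Agent.Tits.Core
  Cfsg.Agent.Nodes.Reps Cfsg.Agent.Nodes.BNOf Cfsg.Agent.Nodes.RGDLib Cfsg.Agent.Nodes.Coroot
  Cfsg.Agent.KFacts.RgdSL
open Cfsg.Lie Cfsg.Agent.ChevalleyStructure Cfsg.Agent.ChevalleyStructure.CoxeterGeomTypes
  Cfsg.Agent.Nodes.RGDChev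
open Cfsg.Agent.H974.Exc (sl_E7 th7 cf isRoot_of cpr_of)
open Cfsg.Agent.GenExc.Chev (isType_E7)
open Cfsg.Agent.H557.LrE7 (bb AE)
open Cfsg.Agent.H190.IF (EC)

/-- representatives of the two-cycles of `w` on the roots `β ⟂ C` with `⟨β, α^∨⟩ = 1` -/
structure Lvl {I W : Type*} [Fintype I] [DecidableEq I] [Group W] [Finite W] {M : CoxeterMatrix I}
    (cs : CoxeterSystem M W) {A : I → I → ℤ} (h : IsCartan M A) (w : W) (C : List (I → ℤ)) (α : I → ℤ)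
    (S : Finset (I → ℤ)) : Prop where
  ec : ∀ β ∈ S, β ∈ EC cs h C
  one : ∀ β ∈ S, cpr cs h β α = 1
  zero : ∀ β ∈ S, cpr cs h β (rep cs h w β) = 0
  not : ∀ β ∈ S, rep cs h w β ∉ S
  sub : ∀ β ∈ S, α - β ∈ S ∨ rep cs h w (α - β) ∈ S

/-! ### The lists -/

/-- two-cycles, first level -/
def L0 : List (Fin 7 → ℤ) :=
  [![0, -1, -1, -2, -2, -1, -1], ![0, -1, -1, -2, -2, -1, 0], ![0, -1, -1, -1, -1, -1, -1],
    ![0, -1, -1, -1, -1, -1, 0], ![0, -1, -1, -1, -1, 0, 0], ![0, -1, -1, -1, 0, 0, 0], ![1, 0, 1, 1, 0, 0, 0],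
    ![1, 0, 1, 1, 1, 0, 0], ![1, 0, 1, 1, 1, 1, 0], ![1, 0, 1, 1, 1, 1, 1], ![1, 1, 1, 2, 1, 1, 0],
    ![1, 1, 1, 2, 1, 1, 1]]

/-- two-cycles, second level -/
def L1 : List (Fin 7 → ℤ) :=
  [![0, -1, 0, -1, -1, -1, -1], ![0, -1, 0, -1, -1, -1, 0], ![0, 0, 0, 0, -1, -1, -1], ![0, 0, 0, 0, -1, -1, 0],
    ![1, 1, 2, 2, 1, 1, 0], ![1, 1, 2, 2, 1, 1, 1], ![1, 1, 2, 3, 2, 1, 0], ![1, 1, 2, 3, 2, 1, 1]]

/-- two-cycles, third level -/
def L2 : List (Fin 7 → ℤ) :=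
  [![0, -1, 0, -1, -1, 0, 0], ![0, -1, 0, -1, 0, 0, 0], ![1, 1, 2, 3, 2, 2, 1], ![1, 1, 2, 3, 3, 2, 1]]

/-- the opposite list -/
def ng (L : List (Fin 7 → ℤ)) : List (Fin 7 → ℤ) := L.map fun v => -v

/-- the check -/
def Chk (C : List (Fin 7 → ℤ)) (a : Fin 7 → ℤ) (L : List (Fin 7 → ℤ)) : Prop :=
  (∀ v ∈ L, (∃ r ∈ List.range chevE7.nroots, vec chevE7 7 r = v) ∧ (∀ c ∈ C, cf AE v c = 0) ∧ cf AE v a = 1 ∧
    cf AE v (th7 v) = 0 ∧ th7 v ∉ L ∧ (a - v ∈ L ∨ th7 (a - v) ∈ L)) ∧ L.Nodup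

instance (C : List (Fin 7 → ℤ)) (a : Fin 7 → ℤ) (L : List (Fin 7 → ℤ)) : Decidable (Chk C a L) := by
  unfold Chk; infer_instance

set_option backward.isDefEq.respectTransparency false
set_option maxRecDepth 20000

theorem chk0 : Chk [] (bb 0) L0 ∧ Chk [] (-bb 0) (ng L0) := by decide +kernel

theorem chk1 : Chk [bb 0] (bb 1) L1 ∧ Chk [bb 0] (-bb 1) (ng L1) := by decide +kernel

theorem chk2 : Chk [bb 1, bb 0] (bb 2) L2 ∧ Chk [bb 1, bb 0] (-bb 2) (ng L2) := by decide +kernel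

theorem tab_orth : ∀ i j : Fin 4, i ≠ j → cf AE (bb i) (bb j) = 0 := by decide +kernel

section

variable {W : Type*} [Group W] [Finite W] (cs : CoxeterSystem CoxeterMatrix.E₇ W)

theorem root (i : Fin 4) : IsRoot cs isType_E7.isCartan (bb i) :=
  isRoot_of isType_E7 cs (H557.LrE7.tab_bb i).1

theorem cpr_eq {x y : Fin 7 → ℤ} (hy : IsRoot cs isType_E7.isCartan y) {c : ℤ} (h : cf AE x y = c) :
    cpr cs isType_E7.isCartan x y = c := cpr_of isType_E7 (sl_E7 cs) x hy h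

theorem orth {i j : Fin 4} (hij : i ≠ j) : cpr cs isType_E7.isCartan (bb i) (bb j) = 0 :=
  cpr_eq cs (root cs j) (tab_orth i j hij)

theorem ec_of {i : Fin 4} {C : List (Fin 7 → ℤ)} (hC : ∀ c ∈ C, ∃ j, j ≠ i ∧ c = bb j) :
    bb i ∈ EC cs isType_E7.isCartan C ∧ -bb i ∈ EC cs isType_E7.isCartan C := by
  refine ⟨⟨root cs i, fun c hc => ?_⟩, ⟨(root cs i).neg, fun c hc => ?_⟩⟩
  · obtain ⟨j, hj, rfl⟩ := hC c hc
    exact orth cs hj.symm
  · obtain ⟨j, hj, rfl⟩ := hC c hc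
    rw [cpr_neg_left _ (root cs j), orth cs hj.symm, neg_zero]

theorem ec0 : bb 0 ∈ EC cs isType_E7.isCartan [] ∧ -bb 0 ∈ EC cs isType_E7.isCartan [] := ec_of cs (by simp)

theorem ec1 : bb 1 ∈ EC cs isType_E7.isCartan [bb 0] ∧ -bb 1 ∈ EC cs isType_E7.isCartan [bb 0] :=
  ec_of cs (by
    intro c hc
    rw [List.mem_singleton] at hc
    exact ⟨0, by decide, hc⟩)

theorem ec2 : bb 2 ∈ EC cs isType_E7.isCartan [bb 1, bb 0] ∧ -bb 2 ∈ EC cs isType_E7.isCartan [bb 1, bb 0] :=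
  ec_of cs (by
    intro c hc
    simp only [List.mem_cons, List.not_mem_nil, or_false] at hc
    rcases hc with hc | hc
    · exact ⟨1, by decide, hc⟩
    · exact ⟨0, by decide, hc⟩)

theorem ec3 : bb 3 ∈ EC cs isType_E7.isCartan [bb 2, bb 1, bb 0] ∧
    -bb 3 ∈ EC cs isType_E7.isCartan [bb 2, bb 1, bb 0] :=
  ec_of cs (by
    intro c hc
    simp only [List.mem_cons, List.not_mem_nil, or_false] at hc
    rcases hc with hc | hc | hc
    · exact ⟨2, by decide, hc⟩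
    · exact ⟨1, by decide, hc⟩
    · exact ⟨0, by decide, hc⟩)

variable {cs} {w : W} (hw : ∀ v, rep cs isType_E7.isCartan w v = th7 v)

include hw

theorem fix (i : Fin 4) : rep cs isType_E7.isCartan w (bb i) = bb i := by rw [hw, (H557.LrE7.tab_bb i).2]

theorem fixn (i : Fin 4) : rep cs isType_E7.isCartan w (-bb i) = -bb i := by rw [map_neg, fix hw]

theorem of_chk {C : List (Fin 7 → ℤ)} {a : Fin 7 → ℤ} {L : List (Fin 7 → ℤ)}
    (hC : ∀ c ∈ C, IsRoot cs isType_E7.isCartan c) (ha : IsRoot cs isType_E7.isCartan a) (h : Chk C a L) :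
    Lvl cs isType_E7.isCartan w C a L.toFinset ∧ L.toFinset.card = L.length := by
  obtain ⟨h1, h2⟩ := h
  have hr : ∀ v ∈ L, IsRoot cs isType_E7.isCartan v := fun v hv => isRoot_of isType_E7 cs (h1 v hv).1
  refine ⟨⟨?_, ?_, ?_, ?_, ?_⟩, List.toFinset_card_of_nodup h2⟩
  · intro v hv
    rw [List.mem_toFinset] at hv
    exact ⟨hr v hv, fun c hc => cpr_eq cs (hC c hc) ((h1 v hv).2.1 c hc)⟩
  · intro v hv
    rw [List.mem_toFinset] at hv
    exact cpr_eq cs ha (h1 v hv).2.2.1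
  · intro v hv
    rw [List.mem_toFinset] at hv
    have h3 := (hr v hv).act w
    rw [hw] at h3 ⊢
    exact cpr_eq cs h3 (h1 v hv).2.2.2.1
  · intro v hv
    rw [List.mem_toFinset] at hv ⊢
    rw [hw]
    exact (h1 v hv).2.2.2.2.1
  · intro v hv
    rw [List.mem_toFinset] at hv
    rw [List.mem_toFinset, List.mem_toFinset, hw]
    exact (h1 v hv).2.2.2.2.2

theorem lvl0 : ∃ S, Lvl cs isType_E7.isCartan w [] (bb 0) S ∧ S.card = 2 * 6 :=
  ⟨_, (of_chk hw (by simp) (root cs 0) chk0.1).1, (of_chk hw (by simp) (root cs 0) chk0.1).2⟩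

theorem lvl0n : ∃ S, Lvl cs isType_E7.isCartan w [] (-bb 0) S ∧ S.card = 2 * 6 :=
  ⟨_, (of_chk hw (by simp) (root cs 0).neg chk0.2).1, (of_chk hw (by simp) (root cs 0).neg chk0.2).2⟩

theorem lvl1 : ∃ S, Lvl cs isType_E7.isCartan w [bb 0] (bb 1) S ∧ S.card = 2 * 4 := by
  have h1 := of_chk hw (by simpa using root cs 0) (root cs 1) chk1.1
  exact ⟨_, h1.1, h1.2⟩

theorem lvl1n : ∃ S, Lvl cs isType_E7.isCartan w [bb 0] (-bb 1) S ∧ S.card = 2 * 4 := by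
  have h1 := of_chk hw (by simpa using root cs 0) (root cs 1).neg chk1.2
  exact ⟨_, h1.1, h1.2⟩

theorem lvl2 : ∃ S, Lvl cs isType_E7.isCartan w [bb 1, bb 0] (bb 2) S ∧ S.card = 2 * 2 := by
  have h1 := of_chk hw (by simpa using ⟨root cs 1, root cs 0⟩) (root cs 2) chk2.1
  exact ⟨_, h1.1, h1.2⟩

theorem lvl2n : ∃ S, Lvl cs isType_E7.isCartan w [bb 1, bb 0] (-bb 2) S ∧ S.card = 2 * 2 := by
  have h1 := of_chk hw (by simpa using ⟨root cs 1, root cs 0⟩) (root cs 2).neg chk2.2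
  exact ⟨_, h1.1, h1.2⟩

omit hw in
theorem lvl_empty (C : List (Fin 7 → ℤ)) (a : Fin 7 → ℤ) : Lvl cs isType_E7.isCartan w C a ∅ :=
  ⟨by simp, by simp, by simp, by simp, by simp⟩

omit hw in
theorem lvl3 : ∃ S, Lvl cs isType_E7.isCartan w [bb 2, bb 1, bb 0] (bb 3) S ∧ S.card = 2 * 0 :=
  ⟨∅, lvl_empty _ _, rfl⟩

omit hw in
theorem lvl3n : ∃ S, Lvl cs isType_E7.isCartan w [bb 2, bb 1, bb 0] (-bb 3) S ∧ S.card = 2 * 0 :=
  ⟨∅, lvl_empty _ _, rfl⟩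

end

end Cfsg.Agent.H496.NTab
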