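import Cfsg.Agent.H176.IF.NonTor
import Cfsg.Agent.H496.IF.NTab

/-!
# S5719, `E₇(q)`, `q` odd: the four levels for the non-toral involutions (helper496)

`e7_four` : `H176.IFn.four` for the frame `bb 0, .., bb 3`: `q^16 ≤ |C(t) : C_B(t)|` for a subgroup `B` without
fundamental involutions, and `q^56 ≤ |C(t)|`.
-/

set_option autoImplicit false
set_option linter.unusedSectionVars false

namespace Cfsg.Agent.H496.NFour

open CoxeterSystem Cfsg.Agent.ChevalleyStructure.CoxeterGeom Cfsg.Agent.Tits.Roots Cfsg.Agent.Tits.Core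
  Cfsg.Agent.Nodes.Reps Cfsg.Agent.Nodes.BNOf Cfsg.Agent.Nodes.RGDLib Cfsg.Agent.Nodes.Coroot
  Cfsg.Agent.KFacts.RgdSL
open Cfsg.Lie Cfsg.Agent.ChevalleyStructure Cfsg.Agent.ChevalleyStructure.CoxeterGeomTypes
open Cfsg.Agent.H974.Exc (sl_E7 th7 cf isRoot_of cpr_of)
open Cfsg.Agent.GenExc.Chev (isType_E7)
open Cfsg.Agent.H557.LrE7 (bb)
open Cfsg.Agent.H557.LrMov (Cn)
open Cfsg.Agent.H190.IF (EC Inv2)
open Cfsg.Agent.H176.IFn (LT)
open Cfsg.Agent.H496.NTab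

section

variable {I W Y : Type*} [Fintype I] [DecidableEq I] [Group W] [Finite W] [Group Y] {M : CoxeterMatrix I}
  {cs : CoxeterSystem M W} {A : I → I → ℤ} {h : IsCartan M A} {X : (I → ℤ) → Subgroup Y}

theorem lt_of {t : Y} {w : W} {C : List (I → ℤ)} {α : I → ℤ} {S : Finset (I → ℤ)}
    (hC : ∀ c ∈ C, IsRoot cs h c ∧ rep cs h w c = c) (mem : α ∈ EC cs h C) (wα : rep cs h w α = α) (cn : Cn t X α)
    (cn' : Cn t X (-α)) (H : Lvl cs h w C α S) : LT cs h X t w C α S where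
  root c hc := (hC c hc).1
  wC c hc := (hC c hc).2
  mem := mem
  wα := wα
  cn := cn
  cn' := cn'
  m1 β hβ := ⟨H.ec β hβ, H.one β hβ, H.zero β hβ, H.not β hβ⟩
  m2 β hβ := H.sub β hβ

end

theorem th7_th7 (x : Fin 7 → ℤ) : th7 (th7 x) = x := by
  funext k
  fin_cases k <;> simp [th7]

variable {W Y : Type*} [Group W] [Finite W] [Group Y] [Finite Y] {cs : CoxeterSystem CoxeterMatrix.E₇ W} {p : ℕ}
  {T : Subgroup Y} {n : Fin 7 → Y} {X : (Fin 7 → ℤ) → Subgroup Y}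

/-- **the four levels for `E₇`** -/
theorem e7_four (R : RGD cs isType_E7.isCartan p T n X)
    (hab : ∀ α, IsRoot cs isType_E7.isCartan α → ∀ u ∈ X α, ∀ v ∈ X α, u * v = v * u) {q : ℕ}
    (hcard : ∀ α, IsRoot cs isType_E7.isCartan α → Nat.card (X α) = q) (hq : 3 ≤ q) (hodd : Odd q)
    {t : Y} (htt : t * t = 1) {w : W} (hw : ∀ v, rep cs isType_E7.isCartan w v = th7 v)
    (hθ : ∀ c, IsRoot cs isType_E7.isCartan c → cj t (X c) = X (rep cs isType_E7.isCartan w c))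
    (hcn : ∀ i, Cn t X (bb i) ∧ Cn t X (-bb i))
    (hsim : ∀ i, ∃ z, Inv2 cs isType_E7.isCartan T X (sr i) z)
    (hsq : ∀ α z, Inv2 cs isType_E7.isCartan T X α z → z * z = 1) {B : Subgroup Y}
    (hB : ∀ α z, Inv2 cs isType_E7.isCartan T X α z → ∀ y ∈ B, ¬ IsConj z y) :
    q ^ 16 ≤ B.relIndex (Subgroup.centralizer {t}) ∧ q ^ 56 ≤ Nat.card (Subgroup.centralizer ({t} : Set Y)) := by
  have hww : ∀ x, rep cs isType_E7.isCartan w (rep cs isType_E7.isCartan w x) = x := fun x => by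
    rw [hw, hw, th7_th7]
  have hcn' : ∀ i, Cn t X (- -bb i) := fun i => by rw [neg_neg]; exact (hcn i).1
  have hC : ∀ i, IsRoot cs isType_E7.isCartan (bb i) ∧ rep cs isType_E7.isCartan w (bb i) = bb i := fun i =>
    ⟨root cs i, fix hw i⟩
  have h0 : ∀ c ∈ ([] : List (Fin 7 → ℤ)), IsRoot cs isType_E7.isCartan c ∧ rep cs isType_E7.isCartan w c = c := by simp
  have h1 : ∀ c ∈ [bb 0], IsRoot cs isType_E7.isCartan c ∧ rep cs isType_E7.isCartan w c = c := by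
    simpa using hC 0
  have h2 : ∀ c ∈ [bb 1, bb 0], IsRoot cs isType_E7.isCartan c ∧ rep cs isType_E7.isCartan w c = c := by
    intro c hc
    simp only [List.mem_cons, List.not_mem_nil, or_false] at hc
    rcases hc with rfl | rfl
    · exact hC 1
    · exact hC 0
  have h3 : ∀ c ∈ [bb 2, bb 1, bb 0], IsRoot cs isType_E7.isCartan c ∧ rep cs isType_E7.isCartan w c = c := by
    intro c hc
    simp only [List.mem_cons, List.not_mem_nil, or_false] at hc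
    rcases hc with rfl | rfl | rfl
    · exact hC 2
    · exact hC 1
    · exact hC 0
  obtain ⟨S₀, L₀, c₀⟩ := lvl0 hw
  obtain ⟨S₀', L₀', c₀'⟩ := lvl0n hw
  obtain ⟨S₁, L₁, c₁⟩ := lvl1 hw
  obtain ⟨S₁', L₁', c₁'⟩ := lvl1n hw
  obtain ⟨S₂, L₂, c₂⟩ := lvl2 hw
  obtain ⟨S₂', L₂', c₂'⟩ := lvl2n hw
  obtain ⟨S₃, L₃, c₃⟩ := lvl3 (cs := cs) (w := w)
  obtain ⟨S₃', L₃', c₃'⟩ := lvl3n (cs := cs) (w := w)
  exact H176.IFn.four R (sl_E7 cs) hab hcard hq hodd htt hww hθ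
    (lt_of h0 (ec0 cs).1 (fix hw 0) (hcn 0).1 (hcn 0).2 L₀)
    (lt_of h0 (ec0 cs).2 (fixn hw 0) (hcn 0).2 (hcn' 0) L₀')
    (lt_of h1 (ec1 cs).1 (fix hw 1) (hcn 1).1 (hcn 1).2 L₁)
    (lt_of h1 (ec1 cs).2 (fixn hw 1) (hcn 1).2 (hcn' 1) L₁')
    (lt_of h2 (ec2 cs).1 (fix hw 2) (hcn 2).1 (hcn 2).2 L₂)
    (lt_of h2 (ec2 cs).2 (fixn hw 2) (hcn 2).2 (hcn' 2) L₂')
    (lt_of h3 (ec3 cs).1 (fix hw 3) (hcn 3).1 (hcn 3).2 L₃)
    (lt_of h3 (ec3 cs).2 (fixn hw 3) (hcn 3).2 (hcn' 3) L₃')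
    c₀ c₀' c₁ c₁' c₂ c₂' c₃ c₃' hsim hsq hB

end Cfsg.Agent.H496.NFour
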